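import Cfsg.Agent.Lib.Classical.MatrixBridge

/-!
# `GL (Fin n) F` as endomorphisms of `Fin n → F`

`Tg g` is the endomorphism of a matrix, and conjugacy of matrices is conjugacy of endomorphisms;
scalars act by scalars.
-/

set_option autoImplicit false
set_option linter.dupNamespace false

namespace Cfsg.Agent.Lib.MatConj.Tg

open Cfsg.Agent.Lib.Classical.MatrixBridge
open scoped Matrix

universe u

variable {F : Type u} [Field F] {n : ℕ}

/-- The endomorphism of `g`. -/
noncomputable def Tg (g : GL (Fin n) F) : (Fin n → F) →ₗ[F] (Fin n → F) := Matrix.mulVecLin (g : Matrix (Fin n) (Fin n) F)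

theorem Tg_apply (g : GL (Fin n) F) (x : Fin n → F) : Tg g x = (g : Matrix (Fin n) (Fin n) F) *ᵥ x := rfl

theorem Tg_mul (g h : GL (Fin n) F) : Tg (g * h) = Tg g * Tg h := by
  rw [Tg, Tg, Tg, Units.val_mul, Matrix.mulVecLin_mul]
  rfl

theorem Tg_one : Tg (1 : GL (Fin n) F) = 1 := by
  ext x
  simp [Tg]

theorem Tg_pow (g : GL (Fin n) F) (s : ℕ) : (Tg g) ^ s = Tg (g ^ s) := by
  induction s with
  | zero => simp [Tg_one]
  | succ s ih => rw [pow_succ, ih, pow_succ, Tg_mul]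

theorem Tg_injective : Function.Injective (Tg : GL (Fin n) F → _) := by
  intro g h hgh
  apply Units.ext
  ext i j
  have h1 := congrFun (LinearMap.congr_fun hgh (Pi.single j 1)) i
  simpa [Tg, Matrix.mulVecLin_apply, Matrix.mulVec_single_one, Matrix.col_apply] using h1

theorem Tg_eq_one_iff (g : GL (Fin n) F) : Tg g = 1 ↔ g = 1 := by
  rw [← Tg_one]
  exact Tg_injective.eq_iff

theorem isConj_iff_T (g h : GL (Fin n) F) :
    IsConj g h ↔ ∃ P : (Fin n → F) ≃ₗ[F] (Fin n → F), ∀ x, P (Tg g x) = Tg h (P x) := by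
  constructor
  · intro hc
    obtain ⟨c, hc⟩ := isConj_iff.mp hc
    refine ⟨glToLin c, fun x => ?_⟩
    have h1 : c * g = h * c := by rw [← hc]; group
    have := congrArg (fun u : GL (Fin n) F => glToLin u x) h1
    simpa [map_mul, Tg_apply] using this
  · rintro ⟨P, hP⟩
    refine isConj_iff.mpr ⟨glToLin.symm P, ?_⟩
    apply glToLin.injective
    rw [map_mul, map_mul, map_inv, MulEquiv.apply_symm_apply]
    apply LinearEquiv.ext
    intro x
    obtain ⟨y, rfl⟩ := P.surjective x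
    show P (glToLin g (P⁻¹ (P y))) = glToLin h (P y)
    have h3 : P⁻¹ (P y) = y := P.symm_apply_apply y
    rw [h3, glToLin_apply, glToLin_apply]
    exact hP y

/-- Every invertible endomorphism comes from a matrix. -/
theorem exists_of_inv (T S : (Fin n → F) →ₗ[F] (Fin n → F)) (h1 : T * S = 1) (h2 : S * T = 1) :
    ∃ g : GL (Fin n) F, Tg g = T := by
  let E : (Fin n → F) ≃ₗ[F] (Fin n → F) := LinearEquiv.ofLinearMap T S h1 h2
  refine ⟨glToLin.symm E, ?_⟩
  apply LinearMap.ext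
  intro x
  rw [Tg_apply, glToLin_symm_mulVec]
  rfl

/-- Realizing endomorphisms with `T^r = 1`. -/
theorem exists_of_pow (T : (Fin n → F) →ₗ[F] (Fin n → F)) (r : ℕ) (hr : r ≠ 0) (hT : T ^ r = 1) :
    ∃ g : GL (Fin n) F, Tg g = T := by
  obtain ⟨s, rfl⟩ : ∃ s, r = s + 1 := ⟨r - 1, by omega⟩
  exact exists_of_inv T (T ^ s) (by rw [← pow_succ', hT]) (by rw [← pow_succ, hT])

/-- The scalar element. -/
noncomputable abbrev sc (n : ℕ) (c : Fˣ) : GL (Fin n) F := Matrix.GeneralLinearGroup.scalar (Fin n) c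

theorem Tg_sc (c : Fˣ) : Tg (sc n c) = (c : F) • 1 := by
  ext x i
  simp [Tg, Matrix.mulVec, dotProduct, Matrix.scalar_apply, Matrix.diagonal_apply]

theorem Tg_sc_mul (c : Fˣ) (g : GL (Fin n) F) : Tg (sc n c * g) = (c : F) • Tg g := by
  rw [Tg_mul, Tg_sc]
  ext x i
  simp

theorem sc_comm (c : Fˣ) (g : GL (Fin n) F) : sc n c * g = g * sc n c :=
  Matrix.GeneralLinearGroup.scalar_commute c g

theorem sc_mul_pow (c : Fˣ) (g : GL (Fin n) F) (s : ℕ) : (sc n c * g) ^ s = sc n (c ^ s) * g ^ s := by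
  have h : Commute (sc n c) g := sc_comm c g
  rw [h.mul_pow, sc, sc, map_pow]

theorem sc_injective (hn : 0 < n) : Function.Injective (sc n : Fˣ → GL (Fin n) F) := by
  intro c d h
  have h1 := congrArg (fun g : GL (Fin n) F => (g : Matrix (Fin n) (Fin n) F) ⟨0, hn⟩ ⟨0, hn⟩) h
  simp only [Matrix.GeneralLinearGroup.coe_scalar, Matrix.scalar_apply, Matrix.diagonal_apply_eq] at h1
  exact Units.ext h1

theorem mem_center_iff_sc (g : GL (Fin n) F) : g ∈ Subgroup.center (GL (Fin n) F) ↔ ∃ c : Fˣ, sc n c = g := by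
  rw [Matrix.GeneralLinearGroup.center_eq_range_scalar]
  rfl

/-- Conjugacy in the projective group is conjugacy up to a scalar. -/
theorem conj_quot {a b : GL (Fin n) F}
    (h : IsConj (a : GL (Fin n) F ⧸ Subgroup.center (GL (Fin n) F)) (b : GL (Fin n) F ⧸ Subgroup.center (GL (Fin n) F))) :
    ∃ c : Fˣ, IsConj a (sc n c * b) := by
  obtain ⟨x, hx⟩ := isConj_iff.mp h
  obtain ⟨P, rfl⟩ := QuotientGroup.mk_surjective x
  have h1 : ((P * a * P⁻¹ : GL (Fin n) F) : GL (Fin n) F ⧸ Subgroup.center (GL (Fin n) F)) = b := by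
    simpa [QuotientGroup.mk_mul, QuotientGroup.mk_inv] using hx
  rw [QuotientGroup.eq] at h1
  obtain ⟨c, hc⟩ := (mem_center_iff_sc _).mp h1
  refine ⟨c⁻¹, isConj_iff.mpr ⟨P, ?_⟩⟩
  have h2 : b = (P * a * P⁻¹) * sc n c := by
    rw [hc]; group
  rw [h2, ← sc_comm c, ← mul_assoc, ← map_mul, inv_mul_cancel, map_one, one_mul]

end Cfsg.Agent.Lib.MatConj.Tg
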